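import Mathlib
import Cfsg.Prelude.Def_ClassicalGeometry
import Cfsg.Agent.Lib.Classical.SLVec
import Cfsg.Agent.Lib.RegUnip.Cyclic

/-! Transvections: any two vector/functional pairs with vanishing pairing are related by a linear automorphism,
which can be taken of determinant one in dimension at least three. -/

set_option autoImplicit false
set_option linter.unusedSectionVars false
set_option linter.unusedSimpArgs false
set_option linter.unusedVariables false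

namespace Cfsg.Agent.Lib.Transv

open Module Matrix

section Abstract

variable {F V : Type*} [Field F] [AddCommGroup V] [Module F V] [FiniteDimensional F V]

theorem exists_frame {a : V} {b : V →ₗ[F] F} (ha : a ≠ 0) (hb : b ≠ 0) (h : b a = 0) :
    ∃ (ψ : V →ₗ[F] F) (w : V), ψ a = 1 ∧ ψ w = 0 ∧ b w = 1 := by
  obtain ⟨φ, hφ⟩ : ∃ φ : Module.Dual F V, φ a ≠ 0 := by
    by_contra hcon
    push Not at hcon
    exact ha ((Module.forall_dual_apply_eq_zero_iff F a).1 hcon)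
  obtain ⟨w₀, hw₀⟩ : ∃ w₀, b w₀ ≠ 0 := by
    by_contra hcon
    push Not at hcon
    exact hb (LinearMap.ext hcon)
  let ψ : V →ₗ[F] F := (φ a)⁻¹ • φ
  have hψ : ψ a = 1 := by simp [ψ, hφ]
  let w₁ := (b w₀)⁻¹ • w₀
  have hw₁ : b w₁ = 1 := by simp [w₁, hw₀]
  refine ⟨ψ, w₁ - ψ w₁ • a, hψ, ?_, ?_⟩
  · simp [hψ]
  · simp [h, hw₁]

/-- The common kernel of two functionals. -/
def perp (ψ b : V →ₗ[F] F) : Submodule F V := LinearMap.ker (ψ.prod b)

theorem mem_perp {ψ b : V →ₗ[F] F} {x : V} : x ∈ perp ψ b ↔ ψ x = 0 ∧ b x = 0 := by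
  simp [perp, LinearMap.mem_ker]

theorem finrank_perp {ψ b : V →ₗ[F] F} {a w : V} (h1 : ψ a = 1) (h2 : ψ w = 0) (h3 : b a = 0) (h4 : b w = 1) :
    finrank F (perp ψ b) + 2 = finrank F V := by
  have hL : LinearMap.range (ψ.prod b) = ⊤ := by
    rw [LinearMap.range_eq_top]
    rintro ⟨s, t⟩
    refine ⟨s • a + t • w, ?_⟩
    simp [h1, h2, h3, h4]
  have h := LinearMap.finrank_range_add_finrank_ker (ψ.prod b)
  rw [hL] at h
  simp only [finrank_top, finrank_prod, finrank_self] at h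
  show finrank F (LinearMap.ker (ψ.prod b)) + 2 = _
  omega

theorem exists_equiv_of_pairs {a a' : V} {b b' : V →ₗ[F] F} (ha : a ≠ 0) (ha' : a' ≠ 0) (hb : b ≠ 0) (hb' : b' ≠ 0)
    (h : b a = 0) (h' : b' a' = 0) : ∃ g : V ≃ₗ[F] V, g a = a' ∧ ∀ x, b' (g x) = b x := by
  obtain ⟨ψ, w, h1, h2, h4⟩ := exists_frame ha hb h
  obtain ⟨ψ', w', h1', h2', h4'⟩ := exists_frame ha' hb' h'
  have hr := finrank_perp h1 h2 h h4
  have hr' := finrank_perp h1' h2' h' h4'
  let θ : perp ψ b ≃ₗ[F] perp ψ' b' := LinearEquiv.ofFinrankEq _ _ (by omega)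
  have hproj : ∀ x, x - ψ x • a - b x • w ∈ perp ψ b := by
    intro x
    rw [mem_perp]
    simp [h1, h2, h, h4]
  let π : V →ₗ[F] perp ψ b := LinearMap.codRestrict (perp ψ b)
    (LinearMap.id - ψ.smulRight a - b.smulRight w) (fun x => by simpa using hproj x)
  have hπ : ∀ x, (π x : V) = x - ψ x • a - b x • w := fun x => by simp [π]
  let g : V →ₗ[F] V := ψ.smulRight a' + b.smulRight w' + (perp ψ' b').subtype ∘ₗ θ.toLinearMap ∘ₗ π
  have hg : ∀ x, g x = ψ x • a' + b x • w' + (θ (π x) : V) := fun x => by simp [g]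
  have hθ : ∀ x, ψ' (θ x : V) = 0 ∧ b' (θ x : V) = 0 := fun x => mem_perp.1 (θ x).2
  have hg1 : ∀ x, ψ' (g x) = ψ x := fun x => by simp [hg, h1', h2', (hθ _).1]
  have hg2 : ∀ x, b' (g x) = b x := fun x => by simp [hg, h', h4', (hθ _).2]
  have hinj : Function.Injective g := by
    rw [← LinearMap.ker_eq_bot, LinearMap.ker_eq_bot']
    intro x hx
    have hψx : ψ x = 0 := by rw [← hg1, hx, map_zero]
    have hbx : b x = 0 := by rw [← hg2, hx, map_zero]
    have h5 : (θ (π x) : V) = 0 := by simpa [hg, hψx, hbx] using hx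
    have h6 : π x = 0 := by
      apply θ.injective
      rw [map_zero]
      exact Subtype.ext h5
    have h7 : (π x : V) = x := by simp [hπ, hψx, hbx]
    rw [← h7, h6]
    rfl
  refine ⟨LinearEquiv.ofInjectiveEndo g hinj, ?_, fun x => by simpa using hg2 x⟩
  show g a = a'
  have h5 : π a = 0 := by
    apply Subtype.ext
    simp [hπ, h1, h]
  simp [hg, h1, h, h5]

end Abstract

section Coordinates

variable {F ι : Type*} [Field F] [Fintype ι] [DecidableEq ι]

/-- Dot product with a fixed vector, as a linear map. -/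
def dotL (b : ι → F) : (ι → F) →ₗ[F] F where
  toFun x := b ⬝ᵥ x
  map_add' := dotProduct_add b
  map_smul' := by
    intro c x
    simp [dotProduct_smul]

@[simp] theorem dotL_apply (b x : ι → F) : dotL b x = b ⬝ᵥ x := rfl

theorem dotL_ne_zero {b : ι → F} (hb : b ≠ 0) : dotL b ≠ 0 := by
  intro h
  apply hb
  funext i
  have := congrArg (fun f => f (Pi.single i 1)) h
  simpa using this

/-- Pairs with vanishing pairing are conjugate under the general linear group. -/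
theorem exists_GL_of_pairs {a a' b b' : ι → F} (ha : a ≠ 0) (ha' : a' ≠ 0) (hb : b ≠ 0) (hb' : b' ≠ 0)
    (h : b ⬝ᵥ a = 0) (h' : b' ⬝ᵥ a' = 0) :
    ∃ G : GL ι F, (G : Matrix ι ι F) *ᵥ a = a' ∧ ∀ x, b' ⬝ᵥ ((G : Matrix ι ι F) *ᵥ x) = b ⬝ᵥ x := by
  obtain ⟨g, hg1, hg2⟩ := exists_equiv_of_pairs (b := dotL b) (b' := dotL b') ha ha' (dotL_ne_zero hb) (dotL_ne_zero hb') h h'
  refine ⟨Cfsg.Agent.Lib.RegUnip.glOfEquiv g, ?_, ?_⟩
  · rw [Cfsg.Agent.Lib.RegUnip.glOfEquiv_mulVec, hg1]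
  · intro x
    rw [Cfsg.Agent.Lib.RegUnip.glOfEquiv_mulVec]
    exact hg2 x

/-- A determinant correction fixing the pair. -/
theorem exists_GL_fix_det {a b : ι → F} (ha : a ≠ 0) (hb : b ≠ 0) (h : b ⬝ᵥ a = 0) (h3 : 3 ≤ Fintype.card ι) {d : F} (hd : d ≠ 0) :
    ∃ Z : Matrix ι ι F, Z.det = d ∧ Z *ᵥ a = a ∧ ∀ x, b ⬝ᵥ (Z *ᵥ x) = b ⬝ᵥ x := by
  obtain ⟨ψ, w, h1, h2, h4⟩ := exists_frame (V := ι → F) ha (dotL_ne_zero hb) h
  have hr := finrank_perp h1 h2 (b := dotL b) h h4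
  have hpos : 0 < finrank F (perp ψ (dotL b)) := by
    rw [finrank_fintype_fun_eq_card] at hr
    omega
  have : Nontrivial (perp ψ (dotL b)) := Module.nontrivial_of_finrank_pos (R := F) hpos
  obtain ⟨⟨u, hu⟩, hne⟩ := exists_ne (0 : perp ψ (dotL b))
  have hu0 : u ≠ 0 := fun h => hne (Subtype.ext h)
  have hum := mem_perp.1 hu
  obtain ⟨φ₀, hφ₀⟩ : ∃ φ : Module.Dual F (ι → F), φ u ≠ 0 := by
    by_contra hcon
    push Not at hcon
    exact hu0 ((Module.forall_dual_apply_eq_zero_iff F u).1 hcon)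
  let φ : Module.Dual F (ι → F) := (φ₀ u)⁻¹ • (φ₀ - φ₀ a • ψ)
  have hφu : φ u = 1 := by
    simp [φ, hum.1, hφ₀]
  have hφa : φ a = 0 := by
    simp [φ, h1]
  -- coordinates of `φ`
  let f : ι → F := fun i => φ (Pi.single i 1)
  have hf : ∀ x, f ⬝ᵥ x = φ x := by
    intro x
    have hx : x = ∑ i, x i • (Pi.single i 1 : ι → F) := by
      funext j
      simp [Finset.sum_apply, Pi.single_apply]
    conv_rhs => rw [hx]
    simp [dotProduct, f, mul_comm]
  let c := d - 1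
  have hZ : ∀ x, vecMulVec (c • u) f *ᵥ x = (f ⬝ᵥ x) • (c • u) := by
    intro x
    funext i
    simp [mulVec, dotProduct, vecMulVec_apply, Finset.mul_sum, Finset.sum_mul, mul_comm, mul_left_comm, mul_assoc]
  refine ⟨1 + vecMulVec (c • u) f, ?_, ?_, ?_⟩
  · rw [vecMulVec_eq Unit, det_one_add_replicateCol_mul_replicateRow]
    simp [dotProduct_smul, hf, hφu, c]
  · rw [add_mulVec, one_mulVec, hZ, hf, hφa]
    simp
  · intro x
    rw [add_mulVec, one_mulVec, hZ, dotProduct_add, dotProduct_smul, dotProduct_smul]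
    have : b ⬝ᵥ u = 0 := hum.2
    simp [this]

/-- Pairs with vanishing pairing are conjugate under the special linear group in dimension at least three. -/
theorem exists_SL_of_pairs {a a' b b' : ι → F} (ha : a ≠ 0) (ha' : a' ≠ 0) (hb : b ≠ 0) (hb' : b' ≠ 0)
    (h : b ⬝ᵥ a = 0) (h' : b' ⬝ᵥ a' = 0) (h3 : 3 ≤ Fintype.card ι) :
    ∃ G : Matrix.SpecialLinearGroup ι F, (G : Matrix ι ι F) *ᵥ a = a' ∧ ∀ x, b' ⬝ᵥ ((G : Matrix ι ι F) *ᵥ x) = b ⬝ᵥ x := by
  obtain ⟨G, hG1, hG2⟩ := exists_GL_of_pairs ha ha' hb hb' h h'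
  have hdet : (G : Matrix ι ι F).det ≠ 0 := by
    have := G.isUnit
    exact (Matrix.isUnit_iff_isUnit_det _ |>.1 this).ne_zero
  obtain ⟨Z, hZ1, hZ2, hZ3⟩ := exists_GL_fix_det ha hb h h3 (inv_ne_zero hdet)
  refine ⟨⟨(G : Matrix ι ι F) * Z, ?_⟩, ?_, ?_⟩
  · rw [det_mul, hZ1, mul_inv_cancel₀ hdet]
  · show ((G : Matrix ι ι F) * Z) *ᵥ a = a'
    rw [← mulVec_mulVec, hZ2, hG1]
  · intro x
    show b' ⬝ᵥ (((G : Matrix ι ι F) * Z) *ᵥ x) = _
    rw [← mulVec_mulVec, hG2, hZ3]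

/-- Conjugation of the outer-product form. -/
theorem mul_one_add_vecMulVec {G : Matrix ι ι F} {a a' b b' : ι → F} (h1 : G *ᵥ a = a')
    (h2 : ∀ x, b' ⬝ᵥ (G *ᵥ x) = b ⬝ᵥ x) :
    G * (1 + vecMulVec a b) = (1 + vecMulVec a' b') * G := by
  have h3 : b' ᵥ* G = b := by
    funext i
    have h4 := h2 (Pi.single i 1)
    simp only [mulVec_single_one, dotProduct_single, mul_one] at h4
    exact h4
  rw [mul_add, add_mul, mul_one, one_mul, mul_vecMulVec, vecMulVec_mul, h1, h3]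

end Coordinates

end Cfsg.Agent.Lib.Transv
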